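import Cfsg.Agent.H162.RkTwoFam
import Cfsg.Agent.H495.TI.FJ2

/-!
# The anisotropic case, part A: the relation `R3` for `ww 0` and Fourier inversion (helper162)
-/

set_option autoImplicit false
open Matrix

namespace Cfsg.Agent.H162.Aniso

open Cfsg.Agent.H162.Weil Cfsg.Agent.H495.TI

variable {F : Type*} [Field F] {m : ℕ}

/-- the vector `(a, x)` -/
def cs (a : F) (x : Fin m → F) : Fin (m + 1) → F := Fin.cons a x

@[simp] theorem cs_zero (a : F) (x : Fin m → F) : cs a x 0 = a := rfl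
@[simp] theorem cs_succ (a : F) (x : Fin m → F) (i : Fin m) : cs a x i.succ = x i := rfl

theorem cs_ext {u v : Fin (m + 1) → F} (h0 : u 0 = v 0) (h : ∀ i : Fin m, u i.succ = v i.succ) :
    u = v := by
  ext i
  exact Fin.cases h0 h i

theorem cs_neg (a : F) (x : Fin m → F) : -cs a x = cs (-a) (-x) := by
  apply cs_ext
  · simp
  · intro i; simp

theorem cs_upG (a : F) (x : Fin m → F) (h : GL (Fin m) F) :
    cs a x ᵥ* ((upG h : GL (Fin (m + 1)) F) : Matrix (Fin (m + 1)) (Fin (m + 1)) F) =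
      cs a (x ᵥ* (h : Matrix (Fin m) (Fin m) F)) := by
  rw [upG_coe]
  apply cs_ext
  · simp [vecMul, dotProduct, Fin.sum_univ_succ]
  · intro i; simp [vecMul, dotProduct, Fin.sum_univ_succ]

theorem cs_hb_inv (a : F) (x b : Fin m → F) :
    cs a x ᵥ* (((hb b)⁻¹ : GL (Fin (m + 1)) F) : Matrix (Fin (m + 1)) (Fin (m + 1)) F) =
      cs a (x + a • b) := by
  rw [hb_inv_coe, vecMul_add, vecMul_one, vecMul_vecMulVec]
  have h : cs a x ⬝ᵥ e0 m F = a := by simp [dotProduct, Fin.sum_univ_succ]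
  rw [h]
  apply cs_ext
  · simp
  · intro i; simp

theorem ev_eq_cs (p : Fin m) (a : F) : ev p.succ 0 a = cs a (Pi.single p 1) := by
  apply cs_ext
  · simp [ev, (Fin.succ_ne_zero p).symm]
  · intro i
    by_cases h : i = p
    · subst h; simp [ev, Fin.succ_ne_zero]
    · have h' : i.succ ≠ p.succ := fun e => h (Fin.succ_injective _ e)
      simp [ev, Fin.succ_ne_zero, h, h']

theorem Ind.cs {x y : Fin m → F} (h : Ind x y) (a b : F) : Ind (cs a x) (cs b y) := by
  obtain ⟨k, l, hkl⟩ := h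
  exact ⟨k.succ, l.succ, by simpa using hkl⟩

theorem ind_cs' {a : F} (ha : a ≠ 0) (x : Fin m → F) {y : Fin m → F} (hy : y ≠ 0) :
    Ind (cs a x) (cs 0 y) := by
  obtain ⟨l, hl⟩ : ∃ l, y l ≠ 0 := by
    by_contra hc
    push Not at hc
    exact hy (funext hc)
  exact ⟨0, l.succ, by simp [ha, hl]⟩

theorem Ind.ne_zero_left {n : ℕ} {x y : Fin n → F} (h : Ind x y) : x ≠ 0 := by
  rintro rfl
  obtain ⟨k, l, hkl⟩ := h
  simp at hkl

theorem Ind.ne_zero_right {n : ℕ} {x y : Fin n → F} (h : Ind x y) : y ≠ 0 := by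
  rintro rfl
  obtain ⟨k, l, hkl⟩ := h
  simp at hkl

theorem Ind.neg_left {n : ℕ} {x y : Fin n → F} (h : Ind x y) : Ind (-x) y := by
  obtain ⟨k, l, hkl⟩ := h
  refine ⟨k, l, ?_⟩
  simp only [Pi.neg_apply]
  intro h0
  apply hkl
  linear_combination -h0

theorem Ind.neg_right {n : ℕ} {x y : Fin n → F} (h : Ind x y) : Ind x (-y) := by
  obtain ⟨k, l, hkl⟩ := h
  refine ⟨k, l, ?_⟩
  simp only [Pi.neg_apply]
  intro h0
  apply hkl
  linear_combination -h0

theorem Ind.ne {n : ℕ} {x y : Fin n → F} (h : Ind x y) : x ≠ y := by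
  rintro rfl
  obtain ⟨k, l, hkl⟩ := h
  apply hkl
  ring

variable [Fintype F] {V : Type*} [AddCommGroup V] [Module ℂ V] {ψ : AddChar F ℂ}

section R3

variable {ρ : Representation ℂ (Sp (m + 1) F) V}
  {i k : Fin (m + 1)} {w : V} {ε δ : ℂ}

/-- **R3** at the index `0`. -/
theorem R3 (hs : Seed2 ρ ψ i k w ε δ) {x y : Fin m → F} (h : Ind x y) (a b : F) :
    g2 ψ (-1) (-1) • ρ (ww 0) (fam2 ρ i k w (cs a x) (cs b y)) =
      ∑ z : F × F, ψ (2 * (a * z.1 + b * z.2)) • fam2 ρ i k w (cs z.1 x) (cs z.2 y) := by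
  obtain ⟨p, q, hpq0⟩ := id h
  have hpq : p ≠ q := by
    rintro rfl
    apply hpq0
    ring
  obtain ⟨g, hgx, hgy⟩ := exists_pair hpq h
  have hp0 : p.succ ≠ 0 := Fin.succ_ne_zero p
  have hq0 : q.succ ≠ 0 := Fin.succ_ne_zero q
  have hpq' : p.succ ≠ q.succ := fun e => hpq (Fin.succ_injective _ e)
  set base := fam2 ρ i k w (Pi.single p.succ 1) (Pi.single q.succ 1) with hbase
  have hbm : base ∈ Wt ρ ψ (TU 1 1 (Pi.single p.succ 1) (Pi.single q.succ 1)) := hs.fam_mem _ _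
  have hN : ∀ z : F × F, Nz ρ p.succ q.succ 0 hp0 hq0 z base =
      fam2 ρ i k w (cs z.1 (Pi.single p 1)) (cs z.2 (Pi.single q 1)) := by
    intro z
    have h1 := ev_nz1 hpq' hp0 hq0 z 0
    have h2 := ev_nz2 hpq' hp0 hq0 z 0
    rw [Prod.fst_zero, ev_zero, add_zero, ev_eq_cs] at h1
    rw [Prod.snd_zero, ev_zero, add_zero, ev_eq_cs] at h2
    rw [Nz_eq, hbase, hs.fam_mm, h1, h2]
  have hG : ∀ z : F × F, ρ (mm (upG g)) (fam2 ρ i k w (cs z.1 (Pi.single p 1))
      (cs z.2 (Pi.single q 1))) = fam2 ρ i k w (cs z.1 x) (cs z.2 y) := by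
    intro z
    rw [hs.fam_mm, ← map_inv, cs_upG, cs_upG, Weil.vecMul_inv hgx, Weil.vecMul_inv hgy]
  have h1 := g2_ww hs.prim (two_ne hs.three) hs.rk hpq' hp0 hq0 one_ne_zero one_ne_zero hbm (a, b)
  simp only [hN] at h1
  have h3 := congrArg (ρ (mm (upG g))) h1
  have hGab : ρ (mm (upG g)) (fam2 ρ i k w (cs a (Pi.single p 1)) (cs b (Pi.single q 1))) =
      fam2 ρ i k w (cs a x) (cs b y) := hG (a, b)
  rw [map_smul, ← rho_mul, ← emb_mm, ← ww_zero_comm_emb, rho_mul, emb_mm, hGab, map_sum] at h3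
  rw [h3]
  refine Finset.sum_congr rfl fun z _ => ?_
  rw [map_smul, hG, one_mul, one_mul]

end R3

/-! ### Fourier inversion on a line -/

omit [Fintype F] in
theorem aniso_sq (hF : ∀ x : F, x ≠ 0 → x ^ 2 = 1) (h2 : (2 : F) ≠ 0) {p q : F}
    (hpq : ¬ (p = 0 ∧ q = 0)) : p ^ 2 + q ^ 2 ≠ 0 := by
  by_cases hp : p = 0
  · have hq : q ≠ 0 := fun h => hpq ⟨hp, h⟩
    rw [hp, hF q hq]
    simp
  · by_cases hq : q = 0
    · rw [hq, hF p hp]
      simp
    · rw [hF p hp, hF q hq]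
      have : (1 : F) + 1 = 2 := by norm_num
      rw [this]; exact h2

theorem inv2 (hF : Fintype.card F = 3) (hψ : ψ.IsPrimitive) {c : F} (hc : c ≠ 0)
    (N : Submodule ℂ V) (E : F × F → V)
    (hN : ∀ z' : F × F, E z' ∈ N →
      ∑ z : F × F, ψ (2 * c * (z'.1 * z.1 + z'.2 * z.2)) • E z ∈ N)
    {p q : F} (hpq : ¬ (p = 0 ∧ q = 0)) (h : ∀ z : F × F, z.1 * q - z.2 * p ≠ 0 → E z ∈ N)
    (z : F × F) : E z ∈ N := by
  classical
  by_cases hz : z.1 * q - z.2 * p ≠ 0
  · exact h z hz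
  push Not at hz
  have hline : ∀ z : F × F, z.1 * q - z.2 * p = 0 → ∃ u : F, z = (u * p, u * q) := by
    intro z hz
    by_cases hp : p = 0
    · have hq : q ≠ 0 := fun h => hpq ⟨hp, h⟩
      refine ⟨z.2 * q⁻¹, ?_⟩
      apply Prod.ext
      · rw [hp] at hz
        rw [hp, mul_zero]
        have : z.1 * q = 0 := by linear_combination hz
        exact (mul_eq_zero.mp this).resolve_right hq
      · show z.2 = z.2 * q⁻¹ * q
        rw [mul_assoc, inv_mul_cancel₀ hq, mul_one]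
    · refine ⟨z.1 * p⁻¹, ?_⟩
      apply Prod.ext
      · show z.1 = z.1 * p⁻¹ * p
        rw [mul_assoc, inv_mul_cancel₀ hp, mul_one]
      · show z.2 = z.1 * p⁻¹ * q
        field_simp
        linear_combination -hz
  obtain ⟨u0, rfl⟩ := hline z hz
  have hn := aniso_sq (fun x hx => sq_ne hF hx) (two_ne hF) hpq
  have hinj : Function.Injective fun u : F => (u * p, u * q) := by
    intro u u' he
    have h1 : u * p = u' * p := congrArg Prod.fst he
    have h3 : u * q = u' * q := congrArg Prod.snd he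
    by_cases hp : p = 0
    · have hq : q ≠ 0 := fun h => hpq ⟨hp, h⟩
      exact mul_right_cancel₀ hq h3
    · exact mul_right_cancel₀ hp h1
  -- the partial sums
  have hB : ∀ v : F, ∑ u : F, ψ (2 * c * v * u) • E (u * p, u * q) ∈ N := by
    intro v
    let z' : F × F := ((v * p + q) / (p ^ 2 + q ^ 2), (v * q - p) / (p ^ 2 + q ^ 2))
    have e1 : z'.1 * p + z'.2 * q = v := by
      show (v * p + q) / (p ^ 2 + q ^ 2) * p + (v * q - p) / (p ^ 2 + q ^ 2) * q = v
      field_simp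
      ring
    have e2 : z'.1 * q - z'.2 * p = 1 := by
      show (v * p + q) / (p ^ 2 + q ^ 2) * q - (v * q - p) / (p ^ 2 + q ^ 2) * p = 1
      field_simp
      ring
    have h1 := hN z' (h z' (by rw [e2]; exact one_ne_zero))
    rw [← Finset.sum_add_sum_compl (Finset.univ.image fun u : F => (u * p, u * q))] at h1
    have h3 : ∑ z ∈ (Finset.univ.image fun u : F => (u * p, u * q))ᶜ,
        ψ (2 * c * (z'.1 * z.1 + z'.2 * z.2)) • E z ∈ N := by
      refine Submodule.sum_mem _ fun z hz => Submodule.smul_mem _ _ (h z ?_)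
      intro h0
      obtain ⟨u, rfl⟩ := hline z h0
      rw [Finset.mem_compl] at hz
      exact hz (Finset.mem_image_of_mem _ (Finset.mem_univ u))
    have h4 := (Submodule.add_mem_iff_left _ h3).mp h1
    rw [Finset.sum_image (fun a _ b _ hab => hinj hab)] at h4
    convert h4 using 1
    refine Finset.sum_congr rfl fun u _ => ?_
    congr 2
    show 2 * c * v * u = 2 * c * (z'.1 * (u * p) + z'.2 * (u * q))
    rw [← e1]; ring
  -- inversion
  have h5 : ∑ v : F, ψ (-(2 * c * v * u0)) • ∑ u : F, ψ (2 * c * v * u) • E (u * p, u * q) ∈ N :=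
    Submodule.sum_mem _ fun v _ => Submodule.smul_mem _ _ (hB v)
  have h6 : ∑ v : F, ψ (-(2 * c * v * u0)) • ∑ u : F, ψ (2 * c * v * u) • E (u * p, u * q) =
      (Fintype.card F : ℂ) • E (u0 * p, u0 * q) := by
    simp only [Finset.smul_sum, smul_smul]
    rw [Finset.sum_comm]
    have h7 : ∀ u : F, ∑ v : F, (ψ (-(2 * c * v * u0)) * ψ (2 * c * v * u)) • E (u * p, u * q) =
        if u = u0 then (Fintype.card F : ℂ) • E (u0 * p, u0 * q) else 0 := by
      intro u
      rw [← Finset.sum_smul]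
      have h8 : ∑ v : F, ψ (-(2 * c * v * u0)) * ψ (2 * c * v * u) =
          ∑ v : F, ψ (v * (2 * c * (u - u0))) := by
        refine Finset.sum_congr rfl fun v _ => ?_
        rw [← AddChar.map_add_eq_mul]
        congr 1
        ring
      rw [h8, AddChar.sum_mulShift _ hψ]
      by_cases hu : u = u0
      · subst hu
        rw [if_pos rfl, if_pos]
        ring
      · rw [if_neg hu, if_neg, Nat.cast_zero, zero_smul]
        exact mul_ne_zero (mul_ne_zero (two_ne hF) hc) (sub_ne_zero.mpr hu)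
    rw [Finset.sum_congr rfl fun u _ => h7 u]
    simp
  rw [h6] at h5
  have h9 : (Fintype.card F : ℂ) ≠ 0 := by exact_mod_cast Fintype.card_ne_zero
  exact (Submodule.smul_mem_iff _ h9).mp h5

end Cfsg.Agent.H162.Aniso
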