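import Cfsg.Agent.H162.AnisoA

/-!
# The anisotropic case, part B: the Fourier–Jacobi piece generated by a rank two vector (helper162)
-/

set_option autoImplicit false
open Matrix Module

namespace Cfsg.Agent.H162.Aniso

open Cfsg.Agent.H162.Weil Cfsg.Agent.H495.TI

variable {F : Type*} [Field F] {m : ℕ} [Fintype F] {V : Type*} [AddCommGroup V] [Module ℂ V]
  {ψ : AddChar F ℂ} {ρ : Representation ℂ (Sp (m + 1) F) V}

/-- A family of vectors with weights `c e_0² + c z²`. -/
structure UFam (ρ : Representation ℂ (Sp (m + 1) F) V) (ψ : AddChar F ℂ) (c : F)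
    (u : (Fin m → F) → V) : Prop where
  u0 : ∀ z, u z ∈ Wt ρ ψ (up c (TT c z))
  u1 : ∀ (h : GL (Fin m) F) (z : Fin m → F), ρ (mm (upG h)) (u z) =
    u (z ᵥ* ((h⁻¹ : GL (Fin m) F) : Matrix (Fin m) (Fin m) F))
  u2 : ∃ κ : ℂ, ∀ z, u (-z) = κ • u z
  u3 : ∀ z, z ≠ 0 → u z ≠ 0

theorem wt_UU {c : F} {T' : Matrix (Fin m) (Fin m) F} {v : V} (hv : v ∈ Wt ρ ψ (up c T')) :
    v ∈ UU ρ ψ c := by
  intro a s
  have h := hv (sR a s + upS 0)
  rw [pr_up] at h
  have h0 : upS (0 : Sym m F) = 0 := by
    apply Subtype.ext
    show up 0 ((0 : Sym m F) : Matrix (Fin m) (Fin m) F) = 0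
    rw [ZeroMemClass.coe_zero, up_zero]
  rw [h0, add_zero, ZeroMemClass.coe_zero, pr_zero_right, add_zero] at h
  exact h

theorem FTl_dl_sum (c : F) (b : Fin m) (x : Fin m → F) :
    FTl ψ c b (dl x : W m F) = ∑ s : F, ψ (2 * c * x b * s) • dl (Function.update x b s) := by
  classical
  ext z
  rw [FTl_apply, Finset.sum_apply]
  by_cases h : Function.update z b (x b) = x
  · have hz : ∀ l, l ≠ b → z l = x l := by
      intro l hl
      have := congrFun h l
      rwa [Function.update_of_ne hl] at this
    have e1 : z = Function.update x b (z b) := by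
      ext l
      by_cases hl : l = b
      · subst hl; simp
      · rw [Function.update_of_ne hl, hz l hl]
    rw [Finset.sum_eq_single (x b), Finset.sum_eq_single (z b)]
    · rw [h, dl_self, Pi.smul_apply, ← e1, dl_self, smul_eq_mul]
      congr 2
      ring
    · intro s _ hs
      rw [Pi.smul_apply, dl_ne, smul_zero]
      intro h0
      apply hs
      have := congrFun h0 b
      rw [Function.update_self] at this
      exact this.symm
    · simp
    · intro s _ hs
      rw [dl_ne, mul_zero]
      intro h0
      apply hs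
      have := congrFun h0 b
      rwa [Function.update_self] at this
    · simp
  · rw [Finset.sum_eq_zero, Finset.sum_eq_zero]
    · intro s _
      rw [Pi.smul_apply, dl_ne, smul_zero]
      intro h0
      apply h
      rw [h0, Function.update_idem, Function.update_eq_self]
    · intro s _
      rw [dl_ne, mul_zero]
      intro h0
      apply h
      have := congrFun h0 b
      rw [Function.update_self] at this
      rw [← this]; exact h0

theorem LH_dl_zero (h : GL (Fin m) F) : LH h (dl 0 : W m F) = dl 0 := by
  ext x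
  rw [LH_apply]
  by_cases hx : x = 0
  · subst hx
    rw [zero_vecMul]
  · rw [dl_ne hx, dl_ne]
    intro h0
    apply hx
    have := congrArg (fun y => y ᵥ* ((h⁻¹ : GL (Fin m) F) : Matrix (Fin m) (Fin m) F)) h0
    simpa only [vecMul_cancel_inv, zero_vecMul] using this

/-- **The Fourier–Jacobi piece.** -/
theorem exists_K [FiniteDimensional ℂ V] (hF : Fintype.card F = 3) (hψ : ψ.IsPrimitive) {c : F}
    (hc : c ≠ 0) (hm : 2 ≤ m) (hR : RkTwo ρ ψ) {u : (Fin m → F) → V} (hu : UFam ρ ψ c u) :
    ∃ (K : Submodule ℂ (MM ρ ψ c)) (j : Fin m) (ω : Representation ℂ (Sp m F) (W m F))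
      (hω : IsWeil ψ c ω), (∀ g, ∀ φ ∈ K, tau hω j ρ g φ ∈ K) ∧
      2 * finrank ℂ K ≤ Fintype.card F ^ m + 1 ∧
      (∀ x z, z ≠ 0 → ρ (mm (hb (-x))) (u z) ∈ LL K) ∧
      (∀ N : Submodule ℂ V, (∀ g : Sp m F, ∀ v ∈ N, ρ (emb g) v ∈ N) →
        (∀ x z, Ind x z → ρ (mm (hb (-x))) (u z) ∈ N) → LL K ≤ N) := by
  classical
  have h2 := two_ne hF
  let p : Fin m := ⟨0, by omega⟩
  let j : Fin m := ⟨1, by omega⟩
  have hpj : p ≠ j := by
    intro h
    have := congrArg Fin.val h
    simp [p, j] at this
  have : Nontrivial (Fin m) := ⟨⟨p, j, hpj⟩⟩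
  obtain ⟨ω, a1, a2, a3, a4⟩ := exists_weil (n := m) hψ h2 hc j
  have hω : IsWeil ψ c ω := ⟨hψ, h2, hc, a1, a2, a3, a4⟩
  let φ : (Fin m → F) → MM ρ ψ c := fun z => ⟨lf ρ (u z), lf_mem (wt_UU (hu.u0 z))⟩
  have hφ0 : ∀ z, (φ z).1 (dl 0) = u z := fun z => lf_dl_zero _
  have hφx : ∀ z x, (φ z).1 (dl x) = ρ (mm (hb (-x))) (u z) := fun z x => lf_dl _ _
  have hMext : ∀ φ φ' : MM ρ ψ c, φ.1 (dl 0) = φ'.1 (dl 0) → φ = φ' := fun φ φ' h =>
    Subtype.ext (MM_ext φ.2 φ'.2 h)
  set e : Fin m → F := Pi.single p 1 with he
  have he0 : e ≠ 0 := by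
    intro h
    have := congrFun h p
    simp [he] at this
  have hseed : Seed (tau hω j ρ) ψ c p (φ e) :=
    { prim := hψ
      two := h2
      rk := tau_rkOne hω j hR
      lam0 := hc
      mem := by
        rw [mem_Wt_tau hω j, hφ0]
        exact hu.u0 e
      ne := by
        intro h0
        apply hu.u3 e he0
        rw [← hφ0, h0]
        rfl }
  obtain ⟨f, hf, hfe⟩ := hseed.exists_fam hpj
  -- proportionality
  have hprop : ∀ z, z ≠ 0 → ∃ κ : ℂ, κ ≠ 0 ∧ f z = κ • φ z := by
    intro z hz
    obtain ⟨h, hh⟩ := exists_vecMul_eq_single z hz p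
    have hz' := Weil.vecMul_inv hh
    have hr2 := hf.r2 h e
    rw [he, hz', ← he, hfe] at hr2
    obtain ⟨d, hd, hd'⟩ := hω.w3 h
    have h3 := emb_apply hω j (mm h) (φ e) (dl 0)
    rw [hd', LH_dl_zero, map_smul, hφ0, emb_mm, hu.u1, he, hz', ← he] at h3
    have h4 : tau hω j ρ (mm h) (φ e) = d⁻¹ • φ z := by
      apply hMext
      show _ = d⁻¹ • (φ z).1 (dl 0)
      rw [hφ0, h3, inv_smul_smul₀ hd]
    rw [h4] at hr2
    have hchi := hseed.chi_ne_zero hpj (GeneralLinearGroup.det h)
    refine ⟨(chi ψ c (GeneralLinearGroup.det h))⁻¹ * d⁻¹, mul_ne_zero (inv_ne_zero hchi)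
      (inv_ne_zero hd), ?_⟩
    rw [mul_smul, hr2, inv_smul_smul₀ hchi]
  have hneg : ∃ κ : ℂ, ∀ z, φ (-z) = κ • φ z := by
    obtain ⟨κ, hκ⟩ := hu.u2
    refine ⟨κ, fun z => hMext _ _ ?_⟩
    show _ = κ • (φ z).1 (dl 0)
    rw [hφ0, hφ0, hκ]
  obtain ⟨κ2, hκ2⟩ := hneg
  set K : Submodule ℂ (MM ρ ψ c) := Submodule.span ℂ (Set.range f) with hK
  have hfK : ∀ x, f x ∈ K := fun x => Submodule.subset_span ⟨x, rfl⟩
  have hφK : ∀ z, z ≠ 0 → φ z ∈ K := by
    intro z hz
    obtain ⟨κ, hκ, hfz⟩ := hprop z hz
    have h1 := hfK z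
    rw [hfz] at h1
    exact (Submodule.smul_mem_iff _ hκ).mp h1
  refine ⟨K, j, ω, hω, ?_, ?_, ?_, ?_⟩
  · -- stability
    have hgs : gs ψ (-c) ≠ 0 := gs_ne_zero hψ h2 (neg_ne_zero.mpr hc)
    have hle : ∀ g, (∀ x, tau hω j ρ g (f x) ∈ K) → ∀ φ ∈ K, tau hω j ρ g φ ∈ K := by
      intro g hg φ hφ
      have h : K ≤ K.comap (tau hω j ρ g) := by
        rw [hK, Submodule.span_le]
        rintro _ ⟨x, rfl⟩
        exact hg x
      exact h hφ
    intro g
    refine gen_induct j (P := fun g => ∀ φ ∈ K, tau hω j ρ g φ ∈ K) ?_ ?_ ?_ ?_ ?_ g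
    · intro φ hφ
      rw [map_one]
      exact hφ
    · intro g h hg hh φ hφ
      rw [rho_mul]
      exact hg _ (hh _ hφ)
    · intro S
      apply hle
      intro x
      rw [hf.r1 x S]
      exact K.smul_mem _ (hfK x)
    · intro h
      apply hle
      intro x
      rw [hf.r2 h x]
      exact K.smul_mem _ (hfK _)
    · apply hle
      intro x
      have h1 := hf.r3 j x
      have h3 : gs ψ (-c) • tau hω j ρ (ww j) (f x) ∈ K := by
        rw [h1]
        exact K.sum_mem fun z _ => K.smul_mem _ (hfK _)
      exact (Submodule.smul_mem_iff _ hgs).mp h3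
  · -- dimension
    have hle : K ≤ Submodule.span ℂ
        (((Finset.univ.filter (fun x : Fin m → F => He x)).image f : Finset (MM ρ ψ c)) :
          Set (MM ρ ψ c)) := by
      rw [hK, Submodule.span_le]
      rintro _ ⟨x, rfl⟩
      by_cases hx : He x
      · apply Submodule.subset_span
        rw [Finset.coe_image]
        exact ⟨x, by simpa using hx, rfl⟩
      · have hx' := (not_He_iff x).mp hx
        have hxH : He (-x) := (He_iff h2 (-x)).mpr (Or.inr hx')
        have hx0 : x ≠ 0 := by
          rintro rfl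
          exact hx ((He_iff h2 0).mpr (Or.inl rfl))
        obtain ⟨κ, hκ, hfx⟩ := hprop x hx0
        obtain ⟨κ', hκ', hfx'⟩ := hprop (-x) (neg_ne_zero.mpr hx0)
        have h3 : f (-x) ∈ Submodule.span ℂ
            (((Finset.univ.filter (fun x : Fin m → F => He x)).image f :
              Finset (MM ρ ψ c)) : Set (MM ρ ψ c)) := by
          apply Submodule.subset_span
          rw [Finset.coe_image]
          exact ⟨-x, by simpa using hxH, rfl⟩
        rw [hfx'] at h3
        have h4 := (Submodule.smul_mem_iff _ hκ').mp h3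
        show f x ∈ _
        rw [hfx]
        apply Submodule.smul_mem
        have h5 := hκ2 (-x)
        rw [neg_neg] at h5
        rw [h5]
        exact Submodule.smul_mem _ _ h4
    have h3 := Submodule.finrank_mono hle
    have h4 : finrank ℂ (Submodule.span ℂ
        (((Finset.univ.filter (fun x : Fin m → F => He x)).image f : Finset (MM ρ ψ c)) :
          Set (MM ρ ψ c))) ≤
        ((Finset.univ.filter (fun x : Fin m → F => He x)).image f).card :=
      finrank_span_finset_le_card _
    have h5 := Finset.card_image_le (s := Finset.univ.filter (fun x : Fin m → F => He x)) (f := f)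
    have h6 := finrank_even (n := m) (F := F) h2
    have h7 := finrank_even_eq (n := m) (F := F) h2
    have h8 := finrank_sum (n := m) (F := F) h2
    have h9 : (Finset.univ.filter (fun x : Fin m → F => He x)).card = finrank ℂ (Es m F 1) := by
      rw [h6]
    omega
  · intro x z hz
    rw [← hφx]
    exact mem_LL (hφK z hz) _
  · intro N hN hInd
    have hE0 : ∀ x z, Ind x z → (f z).1 (dl x) ∈ N := by
      intro x z hxz
      obtain ⟨κ, -, hfz⟩ := hprop z (Ind.ne_zero_right hxz)
      rw [hfz]
      show κ • (φ z).1 (dl x) ∈ N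
      rw [hφx]
      exact N.smul_mem _ (hInd x z hxz)
    have hEww : ∀ (b : Fin m) (x z : Fin m → F), (f z).1 (dl x) ∈ N →
        ∑ s : F × F, ψ (2 * c * (x b * s.1 + z b * s.2)) •
          (f (Function.update z b s.2)).1 (dl (Function.update x b s.1)) ∈ N := by
      intro b x z hxz
      have h1 := emb_apply hω j (ww b) (f z) (dl x)
      obtain ⟨d, hd, hd'⟩ := hω.w4 b
      rw [hd', FTl_dl_sum] at h1
      have h3 := hf.r3 b z
      have hgs : gs ψ (-c) ≠ 0 := gs_ne_zero hψ h2 (neg_ne_zero.mpr hc)
      have h4 : gs ψ (-c) • ρ (emb (ww b)) ((f z).1 (dl x)) =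
          d • ∑ s : F × F, ψ (2 * c * (x b * s.1 + z b * s.2)) •
          (f (Function.update z b s.2)).1 (dl (Function.update x b s.1)) := by
        rw [h1]
        have h5 : ∀ y : W m F, gs ψ (-c) • (tau hω j ρ (ww b) (f z)).1 y =
            ∑ t : F, ψ (2 * c * z b * t) • (f (Function.update z b t)).1 y := by
          intro y
          have h6 : gs ψ (-c) • (tau hω j ρ (ww b) (f z)).1 y =
              (gs ψ (-c) • tau hω j ρ (ww b) (f z)).1 y := rfl
          rw [h6, h3]
          simp
        rw [h5, Fintype.sum_prod_type_right]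
        conv_rhs => rw [Finset.smul_sum]
        refine Finset.sum_congr rfl fun t _ => ?_
        rw [map_smul, map_sum, smul_comm]
        refine congrArg (fun X => d • X) ?_
        rw [Finset.smul_sum]
        refine Finset.sum_congr rfl fun s _ => ?_
        rw [map_smul, smul_smul, ← AddChar.map_add_eq_mul]
        congr 2
        ring
      have h5 : d • ∑ s : F × F, ψ (2 * c * (x b * s.1 + z b * s.2)) •
          (f (Function.update z b s.2)).1 (dl (Function.update x b s.1)) ∈ N := by
        rw [← h4]
        exact N.smul_mem _ (hN _ _ hxz)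
      exact (Submodule.smul_mem_iff _ hd).mp h5
    have hstep : ∀ x z : Fin m → F, (∃ a, ¬ (x a = 0 ∧ z a = 0)) → (f z).1 (dl x) ∈ N := by
      rintro x z ⟨a, ha⟩
      obtain ⟨b, hb⟩ := exists_ne a
      have h1 := inv2 hF hψ hc N
        (fun s : F × F => (f (Function.update z b s.2)).1 (dl (Function.update x b s.1)))
        (by
          intro s hs
          have h3 := hEww b (Function.update x b s.1) (Function.update z b s.2) hs
          simpa only [Function.update_self, Function.update_idem] using h3)
        (p := x a) (q := z a) ha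
        (by
          intro s hs
          apply hE0
          refine ⟨a, b, ?_⟩
          rw [Function.update_of_ne hb.symm, Function.update_of_ne hb.symm, Function.update_self,
            Function.update_self]
          intro h0
          apply hs
          linear_combination -h0)
        (x b, z b)
      simpa only [Function.update_eq_self] using h1
    have hall : ∀ x z : Fin m → F, (f z).1 (dl x) ∈ N := by
      intro x z
      by_cases h : ∃ a, ¬ (x a = 0 ∧ z a = 0)
      · exact hstep x z h
      · push Not at h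
        have hx : x = 0 := funext fun a => (h a).1
        have hz : z = 0 := funext fun a => (h a).2
        subst hx
        subst hz
        have h1 := inv2 hF hψ hc N
          (fun s : F × F => (f (Function.update 0 p s.2)).1 (dl (Function.update 0 p s.1)))
          (by
            intro s hs
            have h3 := hEww p (Function.update 0 p s.1) (Function.update 0 p s.2) hs
            simpa only [Function.update_self, Function.update_idem] using h3)
          (p := 1) (q := 0) (by simp)
          (by
            intro s hs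
            apply hstep
            refine ⟨p, ?_⟩
            rw [Function.update_self, Function.update_self]
            rintro ⟨-, h0⟩
            apply hs
            rw [h0]; ring)
          (0, 0)
        have e0 : Function.update (0 : Fin m → F) p 0 = 0 := by
          ext l
          by_cases hl : l = p
          · subst hl; simp
          · simp [hl]
        simpa only [e0] using h1
    rw [LL, Submodule.span_le]
    rintro _ ⟨φ', hφ', g, rfl⟩
    show φ'.1 g ∈ N
    have hdl : ∀ z, (f z).1 g ∈ N := by
      intro z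
      rw [f_eq_sum g, map_sum]
      refine N.sum_mem fun x _ => ?_
      rw [map_smul]
      exact N.smul_mem _ (hall x z)
    rw [hK] at hφ'
    induction hφ' using Submodule.span_induction with
    | mem x hx =>
      obtain ⟨z, rfl⟩ := hx
      exact hdl z
    | zero => exact N.zero_mem
    | add x y _ _ hx hy => exact N.add_mem hx hy
    | smul a x _ hx => exact N.smul_mem _ hx

end Cfsg.Agent.H162.Aniso
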