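import Cfsg.Agent.H162.AnisoB

/-!
# The anisotropic case, part C: closure and the dimension bound (helper162)
-/

set_option autoImplicit false
open Matrix Module

namespace Cfsg.Agent.H162.Aniso

open Cfsg.Agent.H162.Weil Cfsg.Agent.H495.TI

variable {F : Type*} [Field F] {m : ℕ} [Fintype F] {V : Type*} [AddCommGroup V] [Module ℂ V]
  {ψ : AddChar F ℂ} {ρ : Representation ℂ (Sp (m + 1) F) V} {i k : Fin (m + 1)} {w : V} {ε δ : ℂ}

/-- the family for `c = 1` -/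
noncomputable def uP (ρ : Representation ℂ (Sp (m + 1) F) V) (i k : Fin (m + 1)) (w : V)
    (z : Fin m → F) : V := fam2 ρ i k w (cs 1 0) (cs 0 z)

/-- the family for `c = -1` -/
noncomputable def uM (ρ : Representation ℂ (Sp (m + 1) F) V) (i k : Fin (m + 1)) (w : V)
    (z : Fin m → F) : V := fam2 ρ i k w (cs 1 z) (cs 1 (-z))

theorem uFamP (hs : Seed2 ρ ψ i k w ε δ) : UFam ρ ψ 1 (uP ρ i k w) where
  u0 z := by
    have h := hs.fam_mem (cs 1 0) (cs 0 z)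
    have e : TU 1 1 (cs 1 0) (cs 0 z) = up 1 (TT 1 z) := by
      refine up_ext ?_ ?_ ?_ ?_
      · rw [TU_apply]; simp
      · intro j; rw [TU_apply]; simp
      · intro j; rw [TU_apply]; simp
      · intro a b; rw [TU_apply]; simp [TT_apply]
    rw [e] at h
    exact h
  u1 h z := by
    rw [uP, hs.fam_mm, ← map_inv, cs_upG, cs_upG, zero_vecMul, uP]
  u2 := by
    refine ⟨ε, fun z => ?_⟩
    have e : cs (0 : F) (-z) = -cs 0 z := by rw [cs_neg, neg_zero]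
    rw [uP, e, hs.fam_neg2, uP]
  u3 z hz := hs.fam_ne_zero (ind_cs' one_ne_zero 0 hz)

theorem uFamM (hs : Seed2 ρ ψ i k w ε δ) : UFam ρ ψ (-1) (uM ρ i k w) where
  u0 z := by
    have h := hs.fam_mem (cs 1 z) (cs 1 (-z))
    have h2 := two_eq hs.three
    have e : TU 1 1 (cs 1 z) (cs 1 (-z)) = up (-1) (TT (-1) z) := by
      refine up_ext ?_ ?_ ?_ ?_
      · rw [TU_apply]
        simp only [cs_zero, up_00]
        linear_combination h2
      · intro j; rw [TU_apply]; simp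
      · intro j; rw [TU_apply]; simp
      · intro a b
        rw [TU_apply]
        simp only [cs_succ, up_ss, TT_apply, Pi.neg_apply]
        linear_combination (z a * z b) * h2
    rw [e] at h
    exact h
  u1 h z := by
    rw [uM, hs.fam_mm, ← map_inv, cs_upG, cs_upG, neg_vecMul, uM]
  u2 := by
    refine ⟨δ, fun z => ?_⟩
    rw [uM, neg_neg, hs.fam_swap, uM]
  u3 z hz := by
    apply hs.fam_ne_zero
    obtain ⟨l, hl⟩ : ∃ l, z l ≠ 0 := by
      by_contra hc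
      push Not at hc
      exact hz (funext hc)
    refine ⟨0, l.succ, ?_⟩
    simp only [cs_zero, cs_succ, Pi.neg_apply]
    have h2 := two_eq hs.three
    intro h0
    apply hl
    linear_combination h0 + z l * h2

theorem hb_uP (hs : Seed2 ρ ψ i k w ε δ) (x z : Fin m → F) :
    ρ (mm (hb (-x))) (uP ρ i k w z) = fam2 ρ i k w (cs 1 (-x)) (cs 0 z) := by
  rw [uP, hs.fam_mm, cs_hb_inv, cs_hb_inv, one_smul, zero_smul, zero_add, add_zero]

theorem hb_uM (hs : Seed2 ρ ψ i k w ε δ) (x z : Fin m → F) :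
    ρ (mm (hb (-x))) (uM ρ i k w z) = fam2 ρ i k w (cs 1 (z - x)) (cs 1 (-z - x)) := by
  rw [uM, hs.fam_mm, cs_hb_inv, cs_hb_inv, one_smul, sub_eq_add_neg, sub_eq_add_neg]

/-- vectors fixed by the Heisenberg group -/
def VQ (ρ : Representation ℂ (Sp (m + 1) F) V) : Submodule ℂ V where
  carrier := {v | ∀ (a b : Fin m → F) (s : F), ρ (qq a b s) v = v}
  add_mem' {v v'} h h' := by
    intro a b s
    rw [map_add, h, h']
  zero_mem' := by intro a b s; simp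
  smul_mem' d v h := by
    intro a b s
    rw [map_smul, h]

theorem mem_VQ {v : V} : v ∈ VQ ρ ↔ ∀ (a b : Fin m → F) (s : F), ρ (qq a b s) v = v := Iff.rfl

theorem VQ_emb (g : Sp m F) {v : V} (hv : v ∈ VQ ρ) : ρ (emb g) v ∈ VQ ρ := by
  intro a b s
  have h := emb_qq g ((g⁻¹ : Sp m F).1 *ᵥ Sum.elim a b) s
  have e : g.1 *ᵥ ((g⁻¹ : Sp m F).1 *ᵥ Sum.elim a b) = Sum.elim a b := by
    rw [mulVec_mulVec, ← Submonoid.coe_mul, mul_inv_cancel]
    exact one_mulVec _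
  rw [e, Sum.elim_comp_inl, Sum.elim_comp_inr] at h
  rw [← rho_mul, ← h, rho_mul, hv]

theorem fam_VQ (hs : Seed2 ρ ψ i k w ε δ) (x y : Fin m → F) :
    fam2 ρ i k w (cs 0 x) (cs 0 y) ∈ VQ ρ := by
  intro a b s
  rw [qq, rho_mul, hs.fam_mm, cs_hb_inv, cs_hb_inv, zero_smul, add_zero, add_zero,
    hs.fam_mem (cs 0 x) (cs 0 y) (sR a (s - a ⬝ᵥ b))]
  have h : pr (TU 1 1 (cs 0 x) (cs 0 y)) (sR a (s - a ⬝ᵥ b)).1 = 0 := by
    simp [pr, Fin.sum_univ_succ, TU_apply]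
  rw [h, AddChar.map_zero_eq_one, one_smul]

theorem fam_ctr (hs : Seed2 ρ ψ i k w ε δ) (z : F × F) (x y : Fin m → F) (s : F) :
    ρ (uu (sR 0 s)) (fam2 ρ i k w (cs z.1 x) (cs z.2 y)) =
      ψ ((z.1 ^ 2 + z.2 ^ 2) * s) • fam2 ρ i k w (cs z.1 x) (cs z.2 y) := by
  rw [hs.fam_mem (cs z.1 x) (cs z.2 y) (sR 0 s)]
  congr 2
  have h : pr (TU 1 1 (cs z.1 x) (cs z.2 y)) (sR 0 s).1 = (z.1 ^ 2 + z.2 ^ 2) * s := by
    simp [pr, Fin.sum_univ_succ, TU_apply, pow_two]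
  exact h

/-- the pieces -/
structure Pieces (ρ : Representation ℂ (Sp (m + 1) F) V) (i k : Fin (m + 1)) (w : V)
    (T1 T2 : Submodule ℂ V) : Prop where
  p1 : ∀ x z, z ≠ 0 → fam2 ρ i k w (cs 1 x) (cs 0 z) ∈ T1
  p2 : ∀ x y, x ≠ y → fam2 ρ i k w (cs 1 x) (cs 1 y) ∈ T2
  e1 : ∀ g : Sp m F, ∀ v ∈ T1, ρ (emb g) v ∈ T1
  e2 : ∀ g : Sp m F, ∀ v ∈ T2, ρ (emb g) v ∈ T2

/-- the target for the central character `c` -/
def Tg (ρ : Representation ℂ (Sp (m + 1) F) V) (T1 T2 : Submodule ℂ V) (c : F) : Submodule ℂ V where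
  carrier := {v | (c = 0 → v ∈ VQ ρ) ∧ (c = 1 → v ∈ T1) ∧ (c = -1 → v ∈ T2)}
  add_mem' {v v'} h h' := ⟨fun e => Submodule.add_mem _ (h.1 e) (h'.1 e),
    fun e => Submodule.add_mem _ (h.2.1 e) (h'.2.1 e),
    fun e => Submodule.add_mem _ (h.2.2 e) (h'.2.2 e)⟩
  zero_mem' := ⟨fun _ => Submodule.zero_mem _, fun _ => Submodule.zero_mem _,
    fun _ => Submodule.zero_mem _⟩
  smul_mem' d v h := ⟨fun e => Submodule.smul_mem _ _ (h.1 e),
    fun e => Submodule.smul_mem _ _ (h.2.1 e), fun e => Submodule.smul_mem _ _ (h.2.2 e)⟩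

theorem mem_Tg {T1 T2 : Submodule ℂ V} {c : F} {v : V} : v ∈ Tg ρ T1 T2 c ↔
    (c = 0 → v ∈ VQ ρ) ∧ (c = 1 → v ∈ T1) ∧ (c = -1 → v ∈ T2) := Iff.rfl

theorem fam_Tg (hs : Seed2 ρ ψ i k w ε δ) {T1 T2 : Submodule ℂ V} (hP : Pieces ρ i k w T1 T2)
    {x y : Fin m → F} (hxy : Ind x y) (z : F × F) :
    fam2 ρ i k w (cs z.1 x) (cs z.2 y) ∈ Tg ρ T1 T2 (z.1 ^ 2 + z.2 ^ 2) := by
  have h2 := two_eq hs.three
  have h2n := two_ne hs.three
  have h1m : (1 : F) ≠ -1 := by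
    intro h
    apply h2n
    linear_combination h
  have h1m' : (-1 : F) ≠ 1 := fun h => h1m h.symm
  have hm0 : (-1 : F) ≠ 0 := neg_ne_zero.mpr one_ne_zero
  -- first column `(±1, 0)`
  have hA : ∀ (s : F), (s = 1 ∨ s = -1) → ∀ x y : Fin m → F, y ≠ 0 →
      fam2 ρ i k w (cs s x) (cs 0 y) ∈ T1 := by
    rintro s (rfl | rfl) x y hy
    · exact hP.p1 x y hy
    · have e : cs (-1 : F) x = -cs 1 (-x) := by rw [cs_neg, neg_neg]
      rw [e, hs.fam_neg1]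
      exact T1.smul_mem _ (hP.p1 _ y hy)
  have hB : ∀ (s : F), (s = 1 ∨ s = -1) → ∀ x y : Fin m → F, y ≠ 0 →
      fam2 ρ i k w (cs 0 y) (cs s x) ∈ T1 := by
    intro s hs' x y hy
    rw [hs.fam_swap]
    exact T1.smul_mem _ (hA s hs' x y hy)
  have hC : ∀ (s t : F), (s = 1 ∨ s = -1) → (t = 1 ∨ t = -1) → ∀ x y : Fin m → F, Ind x y →
      fam2 ρ i k w (cs s x) (cs t y) ∈ T2 := by
    have h0 : ∀ (s : F), (s = 1 ∨ s = -1) → ∀ x y : Fin m → F, Ind x y →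
        fam2 ρ i k w (cs s x) (cs 1 y) ∈ T2 := by
      rintro s (rfl | rfl) x y hxy
      · exact hP.p2 x y (Ind.ne hxy)
      · have e : cs (-1 : F) x = -cs 1 (-x) := by rw [cs_neg, neg_neg]
        rw [e, hs.fam_neg1]
        exact T2.smul_mem _ (hP.p2 _ y (Ind.ne (Ind.neg_left hxy)))
    rintro s t hs' (rfl | rfl) x y hxy
    · exact h0 s hs' x y hxy
    · have e : cs (-1 : F) y = -cs 1 (-y) := by rw [cs_neg, neg_neg]
      rw [e, hs.fam_neg2]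
      exact T2.smul_mem _ (h0 s hs' x (-y) (Ind.neg_right hxy))
  have hx := Ind.ne_zero_left hxy
  have hy := Ind.ne_zero_right hxy
  rw [mem_Tg]
  rcases tri hs.three z.1 with h | h
  · rcases tri hs.three z.2 with h' | h'
    · have e : z.1 ^ 2 + z.2 ^ 2 = 0 := by rw [h, h']; ring
      rw [e, h, h']
      exact ⟨fun _ => fam_VQ hs x y, fun e => absurd e.symm one_ne_zero,
        fun e => absurd e.symm hm0⟩
    · have e : z.1 ^ 2 + z.2 ^ 2 = 1 := by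
        rcases h' with h' | h' <;> rw [h, h'] <;> ring
      rw [e, h]
      exact ⟨fun e => absurd e one_ne_zero, fun _ => hB _ h' y x hx, fun e => absurd e h1m⟩
  · rcases tri hs.three z.2 with h' | h'
    · have e : z.1 ^ 2 + z.2 ^ 2 = 1 := by
        rcases h with h | h <;> rw [h, h'] <;> ring
      rw [e, h']
      exact ⟨fun e => absurd e one_ne_zero, fun _ => hA _ h x y hy, fun e => absurd e h1m⟩
    · have e : z.1 ^ 2 + z.2 ^ 2 = -1 := by
        rcases h with h | h <;> rcases h' with h' | h' <;> rw [h, h'] <;> linear_combination h2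
      rw [e]
      exact ⟨fun e => absurd e hm0, fun e => absurd e h1m', fun _ => hC _ _ h h' x y hxy⟩

/-- the closure submodule -/
noncomputable def Ncl (ρ : Representation ℂ (Sp (m + 1) F) V) (ψ : AddChar F ℂ)
    (T1 T2 : Submodule ℂ V) : Submodule ℂ V where
  carrier := {v | ∀ c : F, eZ ρ ψ c (ρ (ww 0) v) ∈ Tg ρ T1 T2 c}
  add_mem' {v v'} h h' := by
    intro c
    rw [map_add, map_add]
    exact Submodule.add_mem _ (h c) (h' c)
  zero_mem' := by intro c; simp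
  smul_mem' d v h := by
    intro c
    rw [map_smul, map_smul]
    exact Submodule.smul_mem _ _ (h c)

theorem mem_Ncl {T1 T2 : Submodule ℂ V} {v : V} : v ∈ Ncl ρ ψ T1 T2 ↔
    ∀ c : F, eZ ρ ψ c (ρ (ww 0) v) ∈ Tg ρ T1 T2 c := Iff.rfl

theorem Tg_emb {T1 T2 : Submodule ℂ V} (hP : Pieces ρ i k w T1 T2) (g : Sp m F) {c : F} {v : V}
    (hv : v ∈ Tg ρ T1 T2 c) : ρ (emb g) v ∈ Tg ρ T1 T2 c :=
  ⟨fun e => VQ_emb g (hv.1 e), fun e => hP.e1 g _ (hv.2.1 e), fun e => hP.e2 g _ (hv.2.2 e)⟩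

theorem Ncl_emb {T1 T2 : Submodule ℂ V} (hP : Pieces ρ i k w T1 T2) (g : Sp m F) {v : V}
    (hv : v ∈ Ncl ρ ψ T1 T2) : ρ (emb g) v ∈ Ncl ρ ψ T1 T2 := by
  intro c
  rw [← rho_mul, ww_zero_comm_emb, rho_mul, eZ_emb]
  exact Tg_emb hP g (hv c)

theorem fam_Ncl (hs : Seed2 ρ ψ i k w ε δ) {T1 T2 : Submodule ℂ V} (hP : Pieces ρ i k w T1 T2)
    {x y : Fin m → F} (hxy : Ind x y) (a b : F) :
    fam2 ρ i k w (cs a x) (cs b y) ∈ Ncl ρ ψ T1 T2 := by
  intro c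
  have hg : g2 ψ (-1) (-1) ≠ 0 :=
    g2_ne_zero hs.three hs.prim (neg_ne_zero.mpr one_ne_zero) (neg_ne_zero.mpr one_ne_zero)
  refine (Submodule.smul_mem_iff _ hg).mp ?_
  rw [← map_smul, R3 hs hxy, map_sum]
  refine Submodule.sum_mem _ fun z _ => ?_
  rw [map_smul]
  refine Submodule.smul_mem _ _ ?_
  by_cases h : c = z.1 ^ 2 + z.2 ^ 2
  · rw [h, eZ_of_mem (fun s => fam_ctr hs z x y s)]
    exact fam_Tg hs hP hxy z
  · rw [eZ_of_ne hs.prim h (fun s => fam_ctr hs z x y s)]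
    exact Submodule.zero_mem _

/-- **The dimension bound in the anisotropic case.** -/
theorem aniso_le [FiniteDimensional ℂ V] (hF : Fintype.card F = 3) (hm : 2 ≤ m)
    (hψ : ψ.IsPrimitive) (hρ : ρ.IsIrreducible) (hzz : ∀ v, ρ (zz (m + 1) F) v = v)
    (hR : RkTwo ρ ψ) (hik : i ≠ k) {v : V}
    (hv : v ∈ Wt ρ ψ (TU 1 1 (Pi.single i 1) (Pi.single k 1))) (hne : v ≠ 0) :
    finrank ℂ V ≤ 2 * 3 ^ m * (3 ^ m + 1) := by
  obtain ⟨w, ε, δ, hs⟩ := exists_seed2 hψ hF hR hik hzz hv hne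
  obtain ⟨K1, j1, ω1, hω1, k1, d1, m1, n1⟩ :=
    exists_K hF hψ one_ne_zero hm hR (uFamP hs)
  obtain ⟨K2, j2, ω2, hω2, k2, d2, m2, n2⟩ :=
    exists_K hF hψ (neg_ne_zero.mpr one_ne_zero) hm hR (uFamM hs)
  have h2 := two_eq hF
  have h2n := two_ne hF
  set T1 := LL K1 with hT1
  set T2 := LL K2 with hT2
  have hP : Pieces ρ i k w T1 T2 := by
    refine ⟨fun x z hz => ?_, fun x y hxy => ?_, fun g v hv => LL_emb hω1 j1 k1 g hv,
      fun g v hv => LL_emb hω2 j2 k2 g hv⟩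
    · have h := m1 (-x) z hz
      rwa [hb_uP hs, neg_neg] at h
    · have h := m2 (x + y) (y - x) (sub_ne_zero.mpr hxy.symm)
      rw [hb_uM hs] at h
      have e1 : y - x - (x + y) = x := by
        ext l
        simp only [Pi.sub_apply, Pi.add_apply]
        linear_combination (-x l) * three_eq hF
      have e2 : -(y - x) - (x + y) = y := by
        ext l
        simp only [Pi.sub_apply, Pi.add_apply, Pi.neg_apply]
        linear_combination (-y l) * three_eq hF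
      rwa [e1, e2] at h
  -- closure
  have c1 : T1 ≤ Ncl ρ ψ T1 T2 := by
    apply n1 _ (fun g v hv => Ncl_emb hP g hv)
    intro x z hxz
    rw [hb_uP hs]
    exact fam_Ncl hs hP (Ind.neg_left hxz) 1 0
  have c2 : T2 ≤ Ncl ρ ψ T1 T2 := by
    apply n2 _ (fun g v hv => Ncl_emb hP g hv)
    intro x z hxz
    rw [hb_uM hs]
    apply fam_Ncl hs hP
    obtain ⟨p, q, hpq⟩ := hxz
    refine ⟨p, q, ?_⟩
    simp only [Pi.sub_apply, Pi.neg_apply]
    intro h0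
    apply hpq
    have : (2 : F) * (x p * z q - x q * z p) = 0 := by linear_combination h0
    exact (mul_eq_zero.mp this).resolve_left h2n
  set T := T1 ⊔ T2 with hT
  have hTN : T ≤ Ncl ρ ψ T1 T2 := sup_le c1 c2
  -- stability of `T`
  have sup_stable : ∀ g : Sp (m + 1) F, (∀ v ∈ T1, ρ g v ∈ T1) → (∀ v ∈ T2, ρ g v ∈ T2) →
      ∀ v ∈ T, ρ g v ∈ T := by
    intro g h1 h3 v hv
    have h : T ≤ T.comap (ρ g) :=
      sup_le (fun v hv => (le_sup_left : T1 ≤ T) (h1 v hv))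
        (fun v hv => (le_sup_right : T2 ≤ T) (h3 v hv))
    exact h hv
  have tuu : ∀ S : Sym (m + 1) F, ∀ v ∈ T, ρ (uu S) v ∈ T := fun S =>
    sup_stable _ (fun v hv => LL_uu hω1 j1 k1 S hv) (fun v hv => LL_uu hω2 j2 k2 S hv)
  have thb : ∀ b : Fin m → F, ∀ v ∈ T, ρ (mm (hb b)) v ∈ T := fun b =>
    sup_stable _ (fun v hv => LL_hb b hv) (fun v hv => LL_hb b hv)
  have temb : ∀ g : Sp m F, ∀ v ∈ T, ρ (emb g) v ∈ T := fun g =>
    sup_stable _ (hP.e1 g) (hP.e2 g)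
  -- `ww 0 ^ 2`
  have tww : ∀ v ∈ T, ρ (ww 0) (ρ (ww 0) v) ∈ T := by
    intro v hv
    rw [← rho_mul, ww_sq]
    have e : (ht 0 (-1) : GL (Fin (m + 1)) F) =
        (-1 : GL (Fin (m + 1)) F) * upG (-1 : GL (Fin m) F) := by
      apply Units.ext
      rw [Units.val_mul, upG_coe, ht_coe, Units.val_neg (1 : GL (Fin (m + 1)) F),
        Units.val_neg (1 : GL (Fin m) F), Units.val_one, Units.val_one, Units.val_neg,
        Units.val_one, neg_one_mul]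
      refine up_ext ?_ ?_ ?_ ?_
      · simp [Matrix.neg_apply]
      · intro l
        simp [(Fin.succ_ne_zero l).symm]
      · intro l
        simp [Matrix.single_apply, (Fin.succ_ne_zero l).symm]
      · intro a b
        simp [Matrix.one_apply, Matrix.single_apply, (Fin.succ_ne_zero _).symm]
    rw [e, map_mul, rho_mul]
    have h4 : ∀ w, ρ (mm (-1 : GL (Fin (m + 1)) F)) w = w := hzz
    rw [h4, ← emb_mm]
    exact temb _ v hv
  -- the third piece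
  set Y : Submodule ℂ V := T.map ((eZ ρ ψ 0) ∘ₗ (ρ (ww 0))) with hY
  have hYm : ∀ v ∈ T, eZ ρ ψ 0 (ρ (ww 0) v) ∈ Y := fun v hv => ⟨v, hv, rfl⟩
  have hYQ : ∀ y ∈ Y, y ∈ VQ ρ := by
    rintro _ ⟨v, hv, rfl⟩
    exact (hTN hv 0).1 rfl
  have yemb : ∀ g : Sp m F, ∀ y ∈ Y, ρ (emb g) y ∈ Y := by
    rintro g _ ⟨v, hv, rfl⟩
    refine ⟨ρ (emb g) v, temb g v hv, ?_⟩
    show eZ ρ ψ 0 (ρ (ww 0) (ρ (emb g) v)) = ρ (emb g) (eZ ρ ψ 0 (ρ (ww 0) v))
    rw [← rho_mul, ww_zero_comm_emb, rho_mul, eZ_emb]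
  have yuu : ∀ S : Sym (m + 1) F, ∀ y ∈ Y, ρ (uu S) y ∈ Y := by
    intro S y hy
    obtain ⟨a, s, S', rfl⟩ := sym_decomp S
    rw [uu_add, rho_mul, ← emb_uu, ← qq_zero_right, hYQ _ (yemb _ y hy)]
    exact yemb _ y hy
  have yhb : ∀ b : Fin m → F, ∀ y ∈ Y, ρ (mm (hb b)) y ∈ Y := by
    intro b y hy
    rw [← qq_zero_left, hYQ _ hy]
    exact hy
  set U := T ⊔ Y with hU
  have hTU : T ≤ U := le_sup_left
  have hYU : Y ≤ U := le_sup_right
  have stab : ∀ g : Sp (m + 1) F, (∀ v ∈ T, ρ g v ∈ T) → (∀ v ∈ Y, ρ g v ∈ Y) →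
      ∀ v ∈ U, ρ g v ∈ U := by
    intro g h1 h3 v hv
    have h : U ≤ U.comap (ρ g) :=
      sup_le (fun v hv => hTU (h1 v hv)) (fun v hv => hYU (h3 v hv))
    exact h hv
  have huniv : ∀ c : F, c = 0 ∨ c = 1 ∨ c = -1 := tri hF
  have hwT : ∀ v ∈ T, ρ (ww 0) v ∈ U := by
    intro v hv
    rw [← sum_eZ hψ (ρ (ww 0) v)]
    refine Submodule.sum_mem _ fun c _ => ?_
    rcases huniv c with h | h | h
    · rw [h]; exact hYU (hYm v hv)
    · exact hTU ((le_sup_left : T1 ≤ T) ((hTN hv c).2.1 h))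
    · exact hTU ((le_sup_right : T2 ≤ T) ((hTN hv c).2.2 h))
  have hwY : ∀ y ∈ Y, ρ (ww 0) y ∈ U := by
    classical
    rintro _ ⟨v, hv, rfl⟩
    show ρ (ww 0) (eZ ρ ψ 0 (ρ (ww 0) v)) ∈ U
    have h1 : eZ ρ ψ 0 (ρ (ww 0) v) = ρ (ww 0) v -
        ∑ c ∈ Finset.univ.erase (0 : F), eZ ρ ψ c (ρ (ww 0) v) := by
      have h3 : eZ ρ ψ 0 (ρ (ww 0) v) +
          ∑ c ∈ Finset.univ.erase (0 : F), eZ ρ ψ c (ρ (ww 0) v) = ρ (ww 0) v := by
        have h4 := Finset.add_sum_erase Finset.univ (fun c : F => eZ ρ ψ c (ρ (ww 0) v))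
          (Finset.mem_univ 0)
        rw [sum_eZ hψ] at h4
        exact h4
      exact eq_sub_of_add_eq h3
    rw [h1, map_sub, map_sum]
    refine Submodule.sub_mem _ (hTU (tww v hv)) (Submodule.sum_mem _ fun c hc => ?_)
    apply hwT
    rw [Finset.mem_erase] at hc
    rcases huniv c with h | h | h
    · exact absurd h hc.1
    · exact (le_sup_left : T1 ≤ T) ((hTN hv c).2.1 h)
    · exact (le_sup_right : T2 ≤ T) ((hTN hv c).2.2 h)
  have hUst : ∀ g : Sp (m + 1) F, ∀ v ∈ U, ρ g v ∈ U := by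
    apply stable_of_gen U
    · exact fun S => stab _ (tuu S) (yuu S)
    · exact fun b => stab _ (thb b) (yhb b)
    · exact fun g => stab _ (temb g) (yemb g)
    · intro v hv
      have h : U ≤ U.comap (ρ (ww 0)) := sup_le hwT hwY
      exact h hv
  -- `U = ⊤`
  let p : Fin m := ⟨0, by omega⟩
  have hp : (Pi.single p 1 : Fin m → F) ≠ 0 := by
    intro h
    have := congrFun h p
    simp at this
  have htop : U = ⊤ := by
    apply eq_top_of_irr hρ U hUst (v := fam2 ρ i k w (cs 1 0) (cs 0 (Pi.single p 1)))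
    · exact hTU ((le_sup_left : T1 ≤ T) (hP.p1 0 _ hp))
    · exact hs.fam_ne_zero (ind_cs' one_ne_zero 0 hp)
  have f1 := finrank_LL_le K1
  have f2 := finrank_LL_le K2
  have f3 : finrank ℂ U = finrank ℂ V := by rw [htop, finrank_top]
  have f4 : finrank ℂ U ≤ finrank ℂ T + finrank ℂ Y := Submodule.finrank_add_le_finrank_add_finrank T Y
  have f5 : finrank ℂ T ≤ finrank ℂ T1 + finrank ℂ T2 :=
    Submodule.finrank_add_le_finrank_add_finrank T1 T2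
  have f6 : finrank ℂ Y ≤ finrank ℂ T := Submodule.finrank_map_le _ _
  rw [hF] at d1 d2 f1 f2
  have g1 : 2 * finrank ℂ T1 ≤ 3 ^ m * (3 ^ m + 1) := by
    calc 2 * finrank ℂ T1 ≤ 2 * (3 ^ m * finrank ℂ K1) := Nat.mul_le_mul_left _ f1
      _ = 3 ^ m * (2 * finrank ℂ K1) := by ring
      _ ≤ 3 ^ m * (3 ^ m + 1) := Nat.mul_le_mul_left _ d1
  have g2' : 2 * finrank ℂ T2 ≤ 3 ^ m * (3 ^ m + 1) := by
    calc 2 * finrank ℂ T2 ≤ 2 * (3 ^ m * finrank ℂ K2) := Nat.mul_le_mul_left _ f2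
      _ = 3 ^ m * (2 * finrank ℂ K2) := by ring
      _ ≤ 3 ^ m * (3 ^ m + 1) := Nat.mul_le_mul_left _ d2
  have g3 : 2 * 3 ^ m * (3 ^ m + 1) = 3 ^ m * (3 ^ m + 1) + 3 ^ m * (3 ^ m + 1) := by ring
  rw [g3]
  omega

end Cfsg.Agent.H162.Aniso
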