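import Cfsg.Agent.H162.AnisoC
import Cfsg.Agent.H495.TI.AsmB

/-!
# The anisotropic case: the statements used in the final assembly (helper162)
-/

set_option autoImplicit false
open Matrix Module

namespace Cfsg.Agent.H162.Aniso

open Cfsg.Agent.H162.Weil Cfsg.Agent.H495.TI

theorem anisoLe (F : Type) [Field F] [Fintype F] (hF : Fintype.card F = 3) : AnisoLe F := by
  intro m V _ _ _ ρ ψ hψ hm hρ hzz hR _ hv
  obtain ⟨v, hv, hne⟩ := hv
  have h01 : (0 : Fin (m + 1)) ≠ 1 := by
    obtain ⟨l, rfl⟩ : ∃ l, m = l + 1 := ⟨m - 1, by omega⟩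
    exact Fin.zero_ne_one
  exact aniso_le hF hm hψ hρ hzz hR h01 hv hne

theorem anisoNo (F : Type) [Field F] [Fintype F] (hF : Fintype.card F = 3) : AnisoNo F :=
  anisoNo_of_le F hF (anisoLe F hF)

end Cfsg.Agent.H162.Aniso
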