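import Cfsg.Agent.H162.RkTwoStab

/-!
# The family of vectors attached to a rank two weight (helper162)
-/

set_option autoImplicit false
open Matrix

namespace Cfsg.Agent.H162.Weil

variable {F : Type*} [Field F] {n : ℕ}

/-! ### pairs of vectors -/

/-- independence of two vectors, by a minor -/
def Ind (x y : Fin n → F) : Prop := ∃ k l : Fin n, x k * y l - x l * y k ≠ 0

theorem vecMul_inv_cancel (g : GL (Fin n) F) (x : Fin n → F) :
    (x ᵥ* ((g⁻¹ : GL (Fin n) F) : Matrix (Fin n) (Fin n) F)) ᵥ*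
      (g : Matrix (Fin n) (Fin n) F) = x := by
  rw [vecMul_vecMul, ← Units.val_mul, inv_mul_cancel, Units.val_one, vecMul_one]

theorem vecMul_cancel_inv (g : GL (Fin n) F) (x : Fin n → F) :
    (x ᵥ* (g : Matrix (Fin n) (Fin n) F)) ᵥ*
      ((g⁻¹ : GL (Fin n) F) : Matrix (Fin n) (Fin n) F) = x := by
  rw [vecMul_vecMul, ← Units.val_mul, mul_inv_cancel, Units.val_one, vecMul_one]

/-- move a vector to `e_k`, fixing `e_i` -/
theorem exists_fix_move {i k : Fin n} (hik : i ≠ k) (y : Fin n → F) (hy : ∃ l, l ≠ i ∧ y l ≠ 0) :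
    ∃ h : GL (Fin n) F, (Pi.single i 1 : Fin n → F) ᵥ* (h : Matrix (Fin n) (Fin n) F) =
      Pi.single i 1 ∧ y ᵥ* (h : Matrix (Fin n) (Fin n) F) = Pi.single k 1 := by
  -- a vector `u` with `u i = 0`, `y ⬝ u = 1`, `u k ≠ 0`
  obtain ⟨u, hui, hyu, huk⟩ : ∃ u : Fin n → F, u i = 0 ∧ y ⬝ᵥ u = 1 ∧ u k ≠ 0 := by
    by_cases hk : y k = 0
    · obtain ⟨l, hl, hyl⟩ := hy
      have hlk : l ≠ k := by rintro rfl; exact hyl hk
      refine ⟨Pi.single l (y l)⁻¹ + Pi.single k 1, ?_, ?_, ?_⟩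
      · simp [hl.symm, hik]
      · rw [dotProduct_add, dotProduct_single, dotProduct_single, hk]
        simp [hyl]
      · simp [hlk.symm]
    · refine ⟨Pi.single k (y k)⁻¹, ?_, ?_, ?_⟩
      · simp [hik]
      · rw [dotProduct_single, mul_inv_cancel₀ hk]
      · simp [hk]
  have h1 : 1 + (Pi.single k 1 - y) ⬝ᵥ u ≠ 0 := by
    rw [sub_dotProduct, hyu, single_dotProduct, one_mul]
    simpa using huk
  refine ⟨rk u (Pi.single k 1 - y) h1, ?_, ?_⟩
  · rw [rk_coe, vecMul_add, vecMul_one, vecMul_vecMulVec, single_dotProduct, hui]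
    simp
  · rw [rk_coe, vecMul_add, vecMul_one, vecMul_vecMulVec, hyu]
    simp

theorem dep_vecMul {X Y : Fin n → F} (h : ∀ p q, X p * Y q = X q * Y p)
    (M : Matrix (Fin n) (Fin n) F) (k l : Fin n) :
    (X ᵥ* M) k * (Y ᵥ* M) l = (X ᵥ* M) l * (Y ᵥ* M) k := by
  have e : ∀ (X : Fin n → F) k, (X ᵥ* M) k = ∑ p, X p * M p k := fun X k => rfl
  rw [e, e, e, e, Finset.sum_mul_sum, Finset.sum_mul_sum, Finset.sum_comm]
  refine Finset.sum_congr rfl fun q _ => Finset.sum_congr rfl fun p _ => ?_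
  linear_combination (M p k * M q l) * h p q

theorem Ind.vecMul {x y : Fin n → F} (h : Ind x y) (g : GL (Fin n) F) :
    Ind (x ᵥ* (g : Matrix (Fin n) (Fin n) F)) (y ᵥ* (g : Matrix (Fin n) (Fin n) F)) := by
  by_contra hc
  have hc' : ∀ k l, (x ᵥ* (g : Matrix (Fin n) (Fin n) F)) k *
      (y ᵥ* (g : Matrix (Fin n) (Fin n) F)) l =
      (x ᵥ* (g : Matrix (Fin n) (Fin n) F)) l * (y ᵥ* (g : Matrix (Fin n) (Fin n) F)) k := by
    intro k l
    by_contra h1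
    exact hc ⟨k, l, sub_ne_zero.mpr h1⟩
  obtain ⟨k, l, hkl⟩ := h
  apply hkl
  have h3 := dep_vecMul hc' ((g⁻¹ : GL (Fin n) F) : Matrix (Fin n) (Fin n) F) k l
  rw [vecMul_cancel_inv, vecMul_cancel_inv] at h3
  exact sub_eq_zero.mpr h3

theorem exists_pair {i k : Fin n} (hik : i ≠ k) {x y : Fin n → F} (h : Ind x y) :
    ∃ g : GL (Fin n) F, x ᵥ* (g : Matrix (Fin n) (Fin n) F) = Pi.single i 1 ∧
      y ᵥ* (g : Matrix (Fin n) (Fin n) F) = Pi.single k 1 := by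
  have hx : x ≠ 0 := by
    rintro rfl
    obtain ⟨a, b, hab⟩ := h
    simp at hab
  obtain ⟨g1, hg1⟩ := exists_vecMul_eq_single x hx i
  have h3 := h.vecMul g1
  rw [hg1] at h3
  obtain ⟨a, b, hab⟩ := h3
  have h4 : ∃ l, l ≠ i ∧ (y ᵥ* (g1 : Matrix (Fin n) (Fin n) F)) l ≠ 0 := by
    by_contra hc
    push Not at hc
    apply hab
    by_cases ha : a = i
    · by_cases hb : b = i
      · rw [ha, hb]; ring
      · rw [hc b hb, mul_zero, Pi.single_eq_of_ne hb, zero_mul, sub_zero]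
    · rw [Pi.single_eq_of_ne ha, hc a ha]; ring
  obtain ⟨g2, hg2, hg2'⟩ := exists_fix_move hik _ h4
  refine ⟨g1 * g2, ?_, ?_⟩
  · rw [Units.val_mul, ← vecMul_vecMul, hg1, hg2]
  · rw [Units.val_mul, ← vecMul_vecMul, hg2']

/-! ### the family -/

section fam

variable [Fintype F] {V : Type*} [AddCommGroup V] [Module ℂ V]
  {ρ : Representation ℂ (Sp n F) V} {ψ : AddChar F ℂ}

/-- The standing hypotheses. -/
structure Seed2 (ρ : Representation ℂ (Sp n F) V) (ψ : AddChar F ℂ) (i k : Fin n) (v : V)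
    (ε δ : ℂ) : Prop where
  prim : ψ.IsPrimitive
  three : Fintype.card F = 3
  rk : RkTwo ρ ψ
  ik : i ≠ k
  mem : v ∈ Wt ρ ψ (TU 1 1 (Pi.single i 1) (Pi.single k 1))
  ne : v ≠ 0
  eps : ε * ε = 1
  del : δ * δ = 1
  h1 : ρ (mm (ht i (-1))) v = ε • v
  h2 : ρ (mm (ht k (-1))) v = ε • v
  h3 : ∀ g : GL (Fin n) F, (Pi.single i 1 : Fin n → F) ᵥ* (g : Matrix (Fin n) (Fin n) F) =
    Pi.single k 1 → (Pi.single k 1 : Fin n → F) ᵥ* (g : Matrix (Fin n) (Fin n) F) =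
    Pi.single i 1 → ρ (mm g) v = δ • v

open Classical in
/-- the family -/
noncomputable def fam2 (ρ : Representation ℂ (Sp n F) V) (i k : Fin n) (v : V)
    (x y : Fin n → F) : V :=
  if h : ∃ g : GL (Fin n) F, x ᵥ* (g : Matrix (Fin n) (Fin n) F) = Pi.single i 1 ∧
      y ᵥ* (g : Matrix (Fin n) (Fin n) F) = Pi.single k 1 then ρ (mm h.choose) v else 0

namespace Seed2

variable {i k : Fin n} {v : V} {ε δ : ℂ} (hs : Seed2 ρ ψ i k v ε δ)

include hs

theorem stab (h : GL (Fin n) F)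
    (hi : (Pi.single i 1 : Fin n → F) ᵥ* (h : Matrix (Fin n) (Fin n) F) = Pi.single i 1)
    (hk : (Pi.single k 1 : Fin n → F) ᵥ* (h : Matrix (Fin n) (Fin n) F) = Pi.single k 1) :
    ρ (mm h) v = v :=
  stab2 hs.three hs.prim hs.rk hs.ik one_ne_zero one_ne_zero hs.mem h hi hk

theorem fam_eq {x y : Fin n → F} {g : GL (Fin n) F}
    (hx : x ᵥ* (g : Matrix (Fin n) (Fin n) F) = Pi.single i 1)
    (hy : y ᵥ* (g : Matrix (Fin n) (Fin n) F) = Pi.single k 1) :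
    fam2 ρ i k v x y = ρ (mm g) v := by
  have h : ∃ g : GL (Fin n) F, x ᵥ* (g : Matrix (Fin n) (Fin n) F) = Pi.single i 1 ∧
      y ᵥ* (g : Matrix (Fin n) (Fin n) F) = Pi.single k 1 := ⟨g, hx, hy⟩
  rw [fam2, dif_pos h]
  set q := h.choose with hq
  have hqx : x ᵥ* (q : Matrix (Fin n) (Fin n) F) = Pi.single i 1 := h.choose_spec.1
  have hqy : y ᵥ* (q : Matrix (Fin n) (Fin n) F) = Pi.single k 1 := h.choose_spec.2
  have h1 : ρ (mm (g⁻¹ * q)) v = v := by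
    apply hs.stab
    · rw [Units.val_mul, ← vecMul_vecMul, Weil.vecMul_inv hx, hqx]
    · rw [Units.val_mul, ← vecMul_vecMul, Weil.vecMul_inv hy, hqy]
  have h3 : q = g * (g⁻¹ * q) := by rw [mul_inv_cancel_left]
  conv_lhs => rw [h3, map_mul, rho_mul, h1]

omit hs in
theorem fam_zero {x y : Fin n → F}
    (h : ¬ ∃ g : GL (Fin n) F, x ᵥ* (g : Matrix (Fin n) (Fin n) F) = Pi.single i 1 ∧
      y ᵥ* (g : Matrix (Fin n) (Fin n) F) = Pi.single k 1) :
    fam2 ρ i k v x y = 0 := by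
  rw [fam2, dif_neg h]

theorem fam_self : fam2 ρ i k v (Pi.single i 1) (Pi.single k 1) = v := by
  rw [hs.fam_eq (g := 1) (by simp) (by simp), map_one, map_one, Module.End.one_apply]

theorem fam_mem (x y : Fin n → F) : fam2 ρ i k v x y ∈ Wt ρ ψ (TU 1 1 x y) := by
  by_cases h : ∃ g : GL (Fin n) F, x ᵥ* (g : Matrix (Fin n) (Fin n) F) = Pi.single i 1 ∧
      y ᵥ* (g : Matrix (Fin n) (Fin n) F) = Pi.single k 1
  · obtain ⟨g, hx, hy⟩ := h
    rw [hs.fam_eq hx hy]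
    have := mm_mem_TU g hs.mem
    rwa [Weil.vecMul_inv hx, Weil.vecMul_inv hy] at this
  · rw [fam_zero h]
    exact Submodule.zero_mem _

theorem fam_mm (g : GL (Fin n) F) (x y : Fin n → F) : ρ (mm g) (fam2 ρ i k v x y) =
    fam2 ρ i k v (x ᵥ* ((g⁻¹ : GL (Fin n) F) : Matrix (Fin n) (Fin n) F))
      (y ᵥ* ((g⁻¹ : GL (Fin n) F) : Matrix (Fin n) (Fin n) F)) := by
  by_cases h : ∃ g : GL (Fin n) F, x ᵥ* (g : Matrix (Fin n) (Fin n) F) = Pi.single i 1 ∧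
      y ᵥ* (g : Matrix (Fin n) (Fin n) F) = Pi.single k 1
  · obtain ⟨h, hx, hy⟩ := h
    have e : ∀ x : Fin n → F, (x ᵥ* ((g⁻¹ : GL (Fin n) F) : Matrix (Fin n) (Fin n) F)) ᵥ*
        ((g * h : GL (Fin n) F) : Matrix (Fin n) (Fin n) F) =
        x ᵥ* (h : Matrix (Fin n) (Fin n) F) := by
      intro x
      rw [vecMul_vecMul, ← Units.val_mul, inv_mul_cancel_left]
    rw [hs.fam_eq hx hy, hs.fam_eq (g := g * h) (by rw [e, hx]) (by rw [e, hy]), map_mul, rho_mul]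
  · rw [fam_zero h, map_zero, fam_zero]
    rintro ⟨q, h1, h3⟩
    apply h
    refine ⟨g⁻¹ * q, ?_, ?_⟩
    · rw [Units.val_mul, ← vecMul_vecMul, h1]
    · rw [Units.val_mul, ← vecMul_vecMul, h3]

theorem fam_act {x y x' y' : Fin n → F} (g : GL (Fin n) F) (c : ℂ)
    (hg : ∀ q : GL (Fin n) F, x ᵥ* (q : Matrix (Fin n) (Fin n) F) = Pi.single i 1 →
      y ᵥ* (q : Matrix (Fin n) (Fin n) F) = Pi.single k 1 →
      x' ᵥ* ((q * g : GL (Fin n) F) : Matrix (Fin n) (Fin n) F) = Pi.single i 1 ∧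
      y' ᵥ* ((q * g : GL (Fin n) F) : Matrix (Fin n) (Fin n) F) = Pi.single k 1)
    (hg' : ∀ q : GL (Fin n) F, x' ᵥ* (q : Matrix (Fin n) (Fin n) F) = Pi.single i 1 →
      y' ᵥ* (q : Matrix (Fin n) (Fin n) F) = Pi.single k 1 →
      ∃ q' : GL (Fin n) F, x ᵥ* (q' : Matrix (Fin n) (Fin n) F) = Pi.single i 1 ∧
      y ᵥ* (q' : Matrix (Fin n) (Fin n) F) = Pi.single k 1)
    (hc : ρ (mm g) v = c • v) : fam2 ρ i k v x' y' = c • fam2 ρ i k v x y := by
  by_cases h : ∃ g : GL (Fin n) F, x ᵥ* (g : Matrix (Fin n) (Fin n) F) = Pi.single i 1 ∧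
      y ᵥ* (g : Matrix (Fin n) (Fin n) F) = Pi.single k 1
  · obtain ⟨q, hx, hy⟩ := h
    obtain ⟨h1, h3⟩ := hg q hx hy
    rw [hs.fam_eq hx hy, hs.fam_eq h1 h3, map_mul, rho_mul, hc, map_smul]
  · rw [fam_zero h, smul_zero, fam_zero]
    rintro ⟨q, h1, h3⟩
    exact h (hg' q h1 h3)

omit hs in
theorem single_ht (i : Fin n) : (Pi.single i 1 : Fin n → F) ᵥ*
    ((ht i (-1) : GL (Fin n) F) : Matrix (Fin n) (Fin n) F) = - Pi.single i 1 := by
  rw [ht_coe, vecMul_add, vecMul_one, vecMul_sgl, Pi.single_eq_same, one_mul, Units.val_neg,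
    Units.val_one]
  ext l
  by_cases hl : l = i
  · subst hl; simp
  · simp [hl]

omit hs in
theorem single_ht_ne {i k : Fin n} (hik : i ≠ k) : (Pi.single k 1 : Fin n → F) ᵥ*
    ((ht i (-1) : GL (Fin n) F) : Matrix (Fin n) (Fin n) F) = Pi.single k 1 := by
  rw [ht_coe, vecMul_add, vecMul_one, vecMul_sgl, Pi.single_eq_of_ne hik, zero_mul,
    Pi.single_zero, add_zero]

theorem fam_neg1 (x y : Fin n → F) : fam2 ρ i k v (-x) y = ε • fam2 ρ i k v x y := by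
  refine hs.fam_act (ht i (-1)) ε (fun q hx hy => ⟨?_, ?_⟩) (fun q hx hy =>
    ⟨q * ht i (-1), ?_, ?_⟩) hs.h1
  · rw [Units.val_mul, ← vecMul_vecMul, neg_vecMul, hx, neg_vecMul, single_ht, neg_neg]
  · rw [Units.val_mul, ← vecMul_vecMul, hy, single_ht_ne hs.ik]
  · rw [neg_vecMul, neg_eq_iff_eq_neg] at hx
    rw [Units.val_mul, ← vecMul_vecMul, hx, neg_vecMul, single_ht, neg_neg]
  · rw [Units.val_mul, ← vecMul_vecMul, hy, single_ht_ne hs.ik]

theorem fam_neg2 (x y : Fin n → F) : fam2 ρ i k v x (-y) = ε • fam2 ρ i k v x y := by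
  refine hs.fam_act (ht k (-1)) ε (fun q hx hy => ⟨?_, ?_⟩) (fun q hx hy =>
    ⟨q * ht k (-1), ?_, ?_⟩) hs.h2
  · rw [Units.val_mul, ← vecMul_vecMul, hx, single_ht_ne hs.ik.symm]
  · rw [Units.val_mul, ← vecMul_vecMul, neg_vecMul, hy, neg_vecMul, single_ht, neg_neg]
  · rw [Units.val_mul, ← vecMul_vecMul, hx, single_ht_ne hs.ik.symm]
  · rw [neg_vecMul, neg_eq_iff_eq_neg] at hy
    rw [Units.val_mul, ← vecMul_vecMul, hy, neg_vecMul, single_ht, neg_neg]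

theorem fam_swap (x y : Fin n → F) : fam2 ρ i k v y x = δ • fam2 ρ i k v x y := by
  have hind : Ind (Pi.single k 1 : Fin n → F) (Pi.single i 1) := by
    refine ⟨k, i, ?_⟩
    simp [hs.ik]
  obtain ⟨g, hgk, hgi⟩ := exists_pair hs.ik hind
  refine hs.fam_act g δ (fun q hx hy => ⟨?_, ?_⟩) (fun q hx hy =>
    ⟨q * g, ?_, ?_⟩) (hs.h3 g hgi hgk)
  · rw [Units.val_mul, ← vecMul_vecMul, hy, hgk]
  · rw [Units.val_mul, ← vecMul_vecMul, hx, hgi]
  · rw [Units.val_mul, ← vecMul_vecMul, hy, hgk]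
  · rw [Units.val_mul, ← vecMul_vecMul, hx, hgi]

theorem fam_ne_zero {x y : Fin n → F} (h : Ind x y) : fam2 ρ i k v x y ≠ 0 := by
  obtain ⟨g, hx, hy⟩ := exists_pair hs.ik h
  rw [hs.fam_eq hx hy]
  intro h0
  apply hs.ne
  apply rho_inj (ρ := ρ) (mm g)
  rw [h0, map_zero]

end Seed2

/-- **Existence of a seed.** -/
theorem exists_seed2 (hψ : ψ.IsPrimitive) (hF : Fintype.card F = 3) (hR : RkTwo ρ ψ)
    {i k : Fin n} (hik : i ≠ k) (hzz : ∀ v, ρ (zz n F) v = v) {v : V}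
    (hv : v ∈ Wt ρ ψ (TU 1 1 (Pi.single i 1) (Pi.single k 1))) (hne : v ≠ 0) :
    ∃ (w : V) (ε δ : ℂ), Seed2 ρ ψ i k w ε δ := by
  set T : Matrix (Fin n) (Fin n) F := TU 1 1 (Pi.single i 1) (Pi.single k 1) with hT
  have hst : ∀ u ∈ Wt ρ ψ T, ∀ h : GL (Fin n) F,
      (Pi.single i 1 : Fin n → F) ᵥ* (h : Matrix (Fin n) (Fin n) F) = Pi.single i 1 →
      (Pi.single k 1 : Fin n → F) ᵥ* (h : Matrix (Fin n) (Fin n) F) = Pi.single k 1 →
      ρ (mm h) u = u := fun u hu h hi hk =>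
    stab2 hF hψ hR hik one_ne_zero one_ne_zero hu h hi hk
  have hind : Ind (Pi.single k 1 : Fin n → F) (Pi.single i 1) := by
    refine ⟨k, i, ?_⟩
    simp [hik]
  obtain ⟨g, hgk, hgi⟩ := exists_pair hik hind
  -- the operators
  have hA : ∀ u ∈ Wt ρ ψ T, ρ (mm (ht i (-1))) u ∈ Wt ρ ψ T := by
    intro u hu
    have := mm_mem_TU (ht i (-1)) hu
    rw [ht_inv, inv_neg, inv_one, Seed2.single_ht, Seed2.single_ht_ne hik] at this
    have e : TU 1 1 (-Pi.single i 1) (Pi.single k 1) = T := by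
      ext a b; rw [hT, TU_apply, TU_apply]; simp
    rwa [e] at this
  have hB : ∀ u ∈ Wt ρ ψ T, ρ (mm g) u ∈ Wt ρ ψ T := by
    intro u hu
    have := mm_mem_TU g hu
    rw [Weil.vecMul_inv hgk, Weil.vecMul_inv hgi] at this
    have e : TU 1 1 (Pi.single k 1) (Pi.single i 1) = T := by
      ext a b; rw [hT, TU_apply, TU_apply]; ring
    rwa [e] at this
  have hA2 : ∀ u ∈ Wt ρ ψ T, ρ (mm (ht i (-1))) (ρ (mm (ht i (-1))) u) = u := by
    intro u hu
    rw [← rho_mul, ← map_mul]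
    apply hst u hu
    · rw [Units.val_mul, ← vecMul_vecMul, Seed2.single_ht, neg_vecMul, Seed2.single_ht, neg_neg]
    · rw [Units.val_mul, ← vecMul_vecMul, Seed2.single_ht_ne hik, Seed2.single_ht_ne hik]
  have hB2 : ∀ u ∈ Wt ρ ψ T, ρ (mm g) (ρ (mm g) u) = u := by
    intro u hu
    rw [← rho_mul, ← map_mul]
    apply hst u hu
    · rw [Units.val_mul, ← vecMul_vecMul, hgi, hgk]
    · rw [Units.val_mul, ← vecMul_vecMul, hgk, hgi]
  have hK : ∀ u ∈ Wt ρ ψ T, ρ (mm (ht k (-1))) u = ρ (mm (ht i (-1))) u := by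
    intro u hu
    apply rho_inj (ρ := ρ) (mm (ht i (-1)))
    rw [hA2 u hu]
    have h3 : ρ (mm ((-1 : GL (Fin n) F) * (ht i (-1) * ht k (-1)))) u = u := by
      apply hst u hu
      · rw [Units.val_mul, Units.val_mul, ← vecMul_vecMul, ← vecMul_vecMul, Units.val_neg,
          Units.val_one, vecMul_neg, vecMul_one, neg_vecMul, Seed2.single_ht, neg_neg,
          Seed2.single_ht_ne hik.symm]
      · rw [Units.val_mul, Units.val_mul, ← vecMul_vecMul, ← vecMul_vecMul, Units.val_neg,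
          Units.val_one, vecMul_neg, vecMul_one, neg_vecMul, Seed2.single_ht_ne hik, neg_vecMul,
          Seed2.single_ht, neg_neg]
    rw [map_mul, rho_mul] at h3
    have h4 : ∀ w, ρ (mm (-1 : GL (Fin n) F)) w = w := hzz
    rw [h4, map_mul, rho_mul] at h3
    exact h3
  have hcomm : ∀ u ∈ Wt ρ ψ T, ρ (mm (ht i (-1))) (ρ (mm g) u) =
      ρ (mm g) (ρ (mm (ht i (-1))) u) := by
    intro u hu
    have h3 : ρ (mm ((g * ht k (-1))⁻¹ * (ht i (-1) * g))) u = u := by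
      apply hst u hu
      · have e1 : (Pi.single i 1 : Fin n → F) ᵥ*
            ((g * ht k (-1) : GL (Fin n) F) : Matrix (Fin n) (Fin n) F) = -Pi.single k 1 := by
          rw [Units.val_mul, ← vecMul_vecMul, hgi, Seed2.single_ht]
        have e2 : (Pi.single k 1 : Fin n → F) ᵥ*
            ((g * ht k (-1) : GL (Fin n) F) : Matrix (Fin n) (Fin n) F) = Pi.single i 1 := by
          rw [Units.val_mul, ← vecMul_vecMul, hgk, Seed2.single_ht_ne hik.symm]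
        rw [Units.val_mul, ← vecMul_vecMul, Weil.vecMul_inv e2, Units.val_mul, ← vecMul_vecMul,
          Seed2.single_ht_ne hik, hgk]
      · have e1 : (-Pi.single i 1 : Fin n → F) ᵥ*
            ((g * ht k (-1) : GL (Fin n) F) : Matrix (Fin n) (Fin n) F) = Pi.single k 1 := by
          rw [Units.val_mul, ← vecMul_vecMul, neg_vecMul, hgi, neg_vecMul, Seed2.single_ht,
            neg_neg]
        rw [Units.val_mul, ← vecMul_vecMul, Weil.vecMul_inv e1, Units.val_mul, ← vecMul_vecMul,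
          neg_vecMul, Seed2.single_ht, neg_neg, hgi]
    have h5 := congrArg (ρ (mm (g * ht k (-1)))) h3
    rw [← rho_mul, ← map_mul, mul_inv_cancel_left, map_mul, rho_mul, map_mul, rho_mul,
      hK u hu] at h5
    exact h5
  -- first eigenvector
  obtain ⟨u, hu, hu0, ε, hε, hAu⟩ : ∃ u ∈ Wt ρ ψ T, u ≠ 0 ∧ ∃ ε : ℂ, ε * ε = 1 ∧
      ρ (mm (ht i (-1))) u = ε • u := by
    by_cases h : v + ρ (mm (ht i (-1))) v = 0
    · refine ⟨v, hv, hne, -1, by norm_num, ?_⟩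
      rw [neg_one_smul]
      exact eq_neg_of_add_eq_zero_right h
    · refine ⟨_, Submodule.add_mem _ hv (hA v hv), h, 1, by norm_num, ?_⟩
      rw [map_add, hA2 v hv, one_smul, add_comm]
  obtain ⟨w, hw, hw0, hAw, δ, hδ, hBw⟩ : ∃ w ∈ Wt ρ ψ T, w ≠ 0 ∧
      ρ (mm (ht i (-1))) w = ε • w ∧ ∃ δ : ℂ, δ * δ = 1 ∧ ρ (mm g) w = δ • w := by
    by_cases h : u + ρ (mm g) u = 0
    · refine ⟨u, hu, hu0, hAu, -1, by norm_num, ?_⟩
      rw [neg_one_smul]
      exact eq_neg_of_add_eq_zero_right h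
    · refine ⟨_, Submodule.add_mem _ hu (hB u hu), h, ?_, 1, by norm_num, ?_⟩
      · rw [map_add, hcomm u hu, hAu, map_smul, smul_add]
      · rw [map_add, hB2 u hu, one_smul, add_comm]
  refine ⟨w, ε, δ, ⟨hψ, hF, hR, hik, hw, hw0, hε, hδ, hAw, ?_, ?_⟩⟩
  · rw [hK w hw, hAw]
  · intro q hqi hqk
    have h1 : ρ (mm (g⁻¹ * q)) w = w := by
      apply hst w hw
      · rw [Units.val_mul, ← vecMul_vecMul, Weil.vecMul_inv hgk, hqk]
      · rw [Units.val_mul, ← vecMul_vecMul, Weil.vecMul_inv hgi, hqi]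
    have h3 : q = g * (g⁻¹ * q) := by rw [mul_inv_cancel_left]
    rw [h3, map_mul, rho_mul, h1, hBw]

end fam

end Cfsg.Agent.H162.Weil
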